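import Cfsg.Agent.PLocalBasics.SmallOmega
import Cfsg.Agent.S0126
import Cfsg.Prelude.Def_PLocal
import Cfsg.Prelude.Def_OddOrderLocal

/-!
Preliminaries for the classification of the `p`-groups of rank at most two.
-/

set_option autoImplicit false
set_option linter.style.haveILetI false

namespace CfsgLib.Blackburn

open scoped commutatorElement
open CfsgLib.PLocalBasics

universe u

variable {p : ℕ} [hp : Fact p.Prime] {G : Type u} [Group G]

omit hp in
theorem exists_nat_pow_eq [Finite G] {g y : G} (h : y ∈ Subgroup.zpowers g) : ∃ i : ℕ, g ^ i = y :=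
  (Submonoid.mem_powers_iff y g).1 ((isOfFinOrder_of_finite g).mem_powers_iff_mem_zpowers.2 h)

omit hp in
theorem comm_pow_left_of_commute {u a : G} (h : Commute u ⁅u, a⁆) (k : ℕ) : ⁅u ^ k, a⁆ = ⁅u, a⁆ ^ k := by
  induction k with
  | zero => simp
  | succ k ih =>
    have e : ⁅u ^ (k + 1), a⁆ = u * ⁅u ^ k, a⁆ * u⁻¹ * ⁅u, a⁆ := by
      simp only [commutatorElement_def, pow_succ']; group
    rw [e, ih, (h.pow_right k).eq, mul_inv_cancel_right, pow_succ]

omit hp in
theorem comm_pow_left_central {u a : G} (h : ⁅u, a⁆ ∈ Subgroup.center G) (k : ℕ) : ⁅u ^ k, a⁆ = ⁅u, a⁆ ^ k :=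
  comm_pow_left_of_commute (Subgroup.mem_center_iff.1 h u) k

omit hp in
theorem comm_mul_left_of_center {l : G} (hl : l ∈ Subgroup.center G) (u a : G) : ⁅l * u, a⁆ = ⁅u, a⁆ := by
  have h := Subgroup.mem_center_iff.1 hl
  simp only [commutatorElement_def, mul_inv_rev]
  calc l * u * a * (u⁻¹ * l⁻¹) * a⁻¹ = l * (u * a * u⁻¹) * l⁻¹ * a⁻¹ := by group
    _ = u * a * u⁻¹ * a⁻¹ := by rw [← h (u * a * u⁻¹)]; group

/-- A step of size `p` in a chain of subgroups. -/
theorem pow_mem_of_card_step [Finite G] {H K : Subgroup G} [H.Normal] (hle : H ≤ K)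
    (hc : Nat.card K = Nat.card H * p) :
    (∀ k ∈ K, k ^ p ∈ H) ∧ ∀ k ∈ K, k ∉ H → H ⊔ Subgroup.zpowers k = K := by
  have h1 : ∀ k ∈ K, k ^ p ∈ H := by
    intro k hk
    have hm : Nat.card ↥(K.map (QuotientGroup.mk' H)) = p := by
      refine Nat.eq_of_mul_eq_mul_left (Nat.card_pos (α := H)) ?_
      rw [← hc, ← CfsgLib.Offender.card_mul_relIndex_of_le hle, ← Subgroup.relIndex_ker, QuotientGroup.ker_mk']
    refine (QuotientGroup.eq_one_iff _).1 ?_
    show QuotientGroup.mk' H (k ^ p) = 1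
    rw [map_pow]
    exact orderOf_dvd_iff_pow_eq_one.1 ((Subgroup.orderOf_dvd_natCard _ (Subgroup.mem_map_of_mem _ hk)).trans hm.dvd)
  exact ⟨h1, fun k hk hkH => Subgroup.eq_of_le_of_card_ge (sup_le hle (Subgroup.zpowers_le.2 hk))
    (by rw [card_sup_zpowers (p := p) hkH (h1 k hk), hc])⟩

/-- The condition produced by an extraspecial subgroup. -/
def BCond (p : ℕ) (G : Type*) [Group G] : Prop :=
  ∃ E : Subgroup G, Nat.card E = p ^ 3 ∧ (∀ e ∈ E, e ^ p = 1) ∧
    ∃ d ∈ Subgroup.center G, ∀ a ∈ E, ∀ b ∈ E, ⁅a, b⁆ ∈ Subgroup.zpowers (d ^ p)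

/-- The elements of order `p` centralizing a normal elementary abelian subgroup of order `p²`. -/
theorem omega_centralizer [Finite G]
    (hrk : ∀ E : Subgroup G, Cfsg.IsElementaryAbelian p E → Nat.card E ≤ p ^ 2)
    {A : Subgroup G} [A.Normal] (hA : Cfsg.IsElementaryAbelian p A) (hA2 : Nat.card A = p ^ 2) :
    ∀ x ∈ Subgroup.centralizer (A : Set G), x ^ p = 1 → x ∈ A := by
  haveI := hA.1
  set C := Subgroup.centralizer (A : Set G)
  intro x hx hxp
  by_contra hxA
  have hB : Cfsg.IsElementaryAbelian p (A ⊔ Subgroup.zpowers x) := by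
    refine ⟨?_, fun b hb => ?_⟩
    · rw [← Subgroup.le_centralizer_iff_isMulCommutative]
      have h1 : Subgroup.zpowers x ≤ C := Subgroup.zpowers_le.2 hx
      refine sup_le (Subgroup.le_centralizer_iff.1 (sup_le (Subgroup.le_centralizer A) h1))
        (Subgroup.le_centralizer_iff.1 (sup_le (Subgroup.le_centralizer_iff.1 h1) (Subgroup.le_centralizer _)))
    · obtain ⟨a, ha, z, hz, rfl⟩ := Subgroup.mem_sup_of_normal_left.1 hb
      obtain ⟨i, rfl⟩ := Subgroup.mem_zpowers_iff.1 hz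
      rw [(show Commute a (x ^ i) from Subgroup.mem_centralizer_iff.1 (C.zpow_mem hx i) a ha).mul_pow, hA.2 a ha,
        one_mul, ← zpow_natCast, zpow_comm, zpow_natCast, hxp, one_zpow]
  have := hrk _ hB
  rw [card_sup_zpowers (p := p) hxA (by rw [hxp]; exact one_mem _), hA2] at this
  exact absurd this (not_le.2 (lt_mul_of_one_lt_right (pow_pos hp.out.pos 2) hp.out.one_lt))

omit hp in
theorem isMetacyclic_of_isCyclic [IsCyclic G] : Cfsg.IsMetacyclic G := by
  haveI : Subsingleton (G ⧸ (⊤ : Subgroup G)) := QuotientGroup.subsingleton_quotient_top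
  exact ⟨⊤, inferInstance, (Subgroup.topEquiv (G := G)).isCyclic.2 ‹_›, inferInstance⟩

theorem metacyclic_small_derived_odd [Finite G] (hR : IsPGroup p G) (hp2 : p ≠ 2)
    (h : SmallOmega p G) (hd : Nat.card ↥(commutator G) ≤ p) : Cfsg.IsMetacyclic G := by
  classical
  by_cases hcy : IsCyclic G
  · exact isMetacyclic_of_isCyclic
  have hZ : commutator G ≤ Subgroup.center G := le_center_of_card_le hR inferInstance hd
  have hcp : ∀ x y : G, ⁅y, x⁆ ^ p = 1 := fun x y => by
    have hm : ⁅y, x⁆ ∈ commutator G := Subgroup.commutator_mem_commutator (Subgroup.mem_top y) (Subgroup.mem_top x)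
    obtain ⟨k, hk⟩ := IsPGroup.iff_card.1 (hR.to_subgroup (commutator G))
    have hk1 : k ≤ 1 := by
      rw [hk] at hd
      exact (Nat.pow_le_pow_iff_right hp.out.one_lt).1 (hd.trans_eq (pow_one p).symm)
    refine orderOf_dvd_iff_pow_eq_one.1 ((Subgroup.orderOf_dvd_natCard _ hm).trans ?_)
    rw [hk]
    exact dvd_trans (pow_dvd_pow p hk1) (dvd_of_eq (pow_one p))
  have hcl : SmallClass p G := Or.inl ⟨by omega, CfsgLib.PGroup.class_two_of_commutator_le_center hZ⟩
  let φ : G →* G := MonoidHom.mk' (fun x => x ^ p) fun x y => hcl.pow_p x y (hcp x y)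
  set F := frattini G with hF
  have hker : Nat.card φ.ker ≤ p ^ 2 := h.card_le fun x hx => MonoidHom.mem_ker.1 hx
  have hrange : φ.range ≤ F := by
    rintro _ ⟨x, rfl⟩; exact CfsgLib.PGroup.pow_mem_frattini hR x
  have hFc : Nat.card (G ⧸ F) ≤ p ^ 2 := by
    refine le_trans ?_ hker
    refine Nat.le_of_mul_le_mul_right ?_ (Nat.card_pos (α := φ.range))
    calc Nat.card (G ⧸ F) * Nat.card φ.range ≤ Nat.card (G ⧸ F) * Nat.card F :=
          Nat.mul_le_mul_left _ (Subgroup.card_le_of_le hrange)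
      _ = Nat.card φ.ker * φ.ker.index := by
          rw [← Subgroup.card_eq_card_quotient_mul_card_subgroup, Subgroup.card_mul_index]
      _ = _ := by rw [Subgroup.index_ker]
  have hFc' : Nat.card (G ⧸ F) = p ^ 2 := by
    refine le_antisymm hFc ?_
    by_contra hlt
    apply hcy
    obtain ⟨k, hk⟩ := IsPGroup.iff_card.1 (hR.to_quotient F)
    rw [hk, Nat.pow_le_pow_iff_right hp.out.one_lt] at hlt
    haveI : IsCyclic (G ⧸ F) := by
      have hk2 : k ≤ 1 := by omega
      interval_cases k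
      · haveI : Subsingleton (G ⧸ F) := (Nat.card_eq_one_iff_unique.1 (by simpa using hk)).1
        infer_instance
      · exact isCyclic_of_prime_card (hk.trans (pow_one p))
    obtain ⟨q, hq⟩ := IsCyclic.exists_generator (α := G ⧸ F)
    obtain ⟨g, rfl⟩ := QuotientGroup.mk'_surjective F q
    have htop : Subgroup.zpowers g = ⊤ := frattini_nongenerating (eq_top_iff.2 fun r _ => by
      obtain ⟨i, hi⟩ := Subgroup.mem_zpowers_iff.1 (hq (QuotientGroup.mk' F r))
      rw [← map_zpow] at hi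
      have hm : (g ^ i)⁻¹ * r ∈ F := QuotientGroup.eq.1 hi
      rw [show r = g ^ i * ((g ^ i)⁻¹ * r) by group]
      exact mul_mem (Subgroup.mem_sup_left (Subgroup.zpow_mem_zpowers g i)) (Subgroup.mem_sup_right hm))
    exact ⟨⟨g, fun r => Subgroup.mem_zpowers_iff.1 (htop.ge (Subgroup.mem_top r))⟩⟩
  have hFeq : φ.range = F := by
    refine Subgroup.eq_of_le_of_card_ge hrange ?_
    have h1 := Subgroup.card_mul_index φ.ker
    rw [Subgroup.index_ker, Subgroup.card_eq_card_quotient_mul_card_subgroup F, hFc'] at h1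
    refine Nat.le_of_mul_le_mul_left ?_ (pow_pos hp.out.pos 2)
    rw [← h1]
    exact Nat.mul_le_mul_right _ hker
  obtain ⟨c, hc⟩ : ∃ c, commutator G ≤ Subgroup.zpowers c := by
    by_cases h1 : commutator G = ⊥
    · exact ⟨1, h1 ▸ bot_le⟩
    · haveI := (commutator G).nontrivial_iff_ne_bot.2 h1
      obtain ⟨⟨c, hc⟩, hc1⟩ := exists_ne (1 : ↥(commutator G))
      refine ⟨c, (Subgroup.eq_of_le_of_card_ge (Subgroup.zpowers_le.2 hc) ?_).ge⟩
      refine hd.trans ?_
      rw [Nat.card_zpowers]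
      exact Nat.le_of_dvd (orderOf_pos c) (hR.dvd_orderOf fun e => hc1 (Subtype.ext e))
  obtain ⟨x, hx, hmax⟩ := Set.exists_max_image {x : G | commutator G ≤ Subgroup.zpowers x} orderOf (Set.toFinite _)
    ⟨c, hc⟩
  have hxF : x ∉ F := by
    intro hxF
    obtain ⟨y, hy⟩ := hFeq.ge hxF
    change y ^ p = x at hy
    have hy1 : y ≠ 1 := by
      intro e
      apply hcy
      haveI : Subsingleton G := by
        refine ⟨fun a b => ?_⟩
        have hall : ∀ z : G, z = 1 := fun z => by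
          have hzS : commutator G ≤ Subgroup.zpowers z := hx.trans (by rw [← hy, e, one_pow, Subgroup.zpowers_one_eq_bot]; exact bot_le)
          have := hmax z hzS
          rw [← hy, e, one_pow, orderOf_one] at this
          exact orderOf_eq_one_iff.1 (le_antisymm this (orderOf_pos z))
        rw [hall a, hall b]
      infer_instance
    have hle := hmax y (hx.trans (Subgroup.zpowers_le.2 (hy ▸ pow_mem (Subgroup.mem_zpowers y) p)))
    have hd' : p ∣ orderOf y := hR.dvd_orderOf hy1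
    rw [← hy, orderOf_pow, Nat.gcd_eq_right hd'] at hle
    exact absurd hle (not_le.2 (Nat.div_lt_self (orderOf_pos y) hp.out.one_lt))
  haveI hxn : (Subgroup.zpowers x).Normal := ⟨fun z hz g => by
    rw [show g * z * g⁻¹ = ⁅g, z⁆ * z by rw [commutatorElement_def]; group]
    exact mul_mem (hx (Subgroup.commutator_mem_commutator (Subgroup.mem_top g) (Subgroup.mem_top z))) hz⟩
  refine ⟨Subgroup.zpowers x, hxn, inferInstance, ?_⟩
  -- a second generator
  set π := QuotientGroup.mk' F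
  have hπx : orderOf (π x) = p := orderOf_eq_prime (frattini_quotient_pow hR _)
    fun e => hxF ((QuotientGroup.eq_one_iff x).1 e)
  obtain ⟨y', hy'⟩ := SetLike.exists_of_lt (show Subgroup.zpowers (π x) < ⊤ from lt_top_iff_ne_top.2 fun e => by
    have := congrArg (fun Z : Subgroup (G ⧸ F) => Nat.card Z) e
    simp only [Nat.card_zpowers, hπx, Subgroup.card_top, hFc'] at this
    nlinarith [hp.out.two_le])
  obtain ⟨y, rfl⟩ := QuotientGroup.mk'_surjective F y'
  haveI : IsMulCommutative (G ⧸ F) := IsPGroup.isMulCommutative_of_card_eq_prime_sq hFc'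
  have hxy : Subgroup.zpowers (π x) ⊔ Subgroup.zpowers (π y) = ⊤ := by
    refine Subgroup.eq_top_of_card_eq _ (le_antisymm (Subgroup.card_le_card_group _) ?_)
    haveI : (Subgroup.zpowers (π x)).Normal := Subgroup.normal_of_isMulCommutative _
    rw [card_sup_zpowers (p := p) hy'.2 (by rw [frattini_quotient_pow hR]; exact one_mem _), Nat.card_zpowers, hπx,
      hFc', pow_two]
  have htop : Subgroup.zpowers x ⊔ Subgroup.zpowers y = ⊤ := frattini_nongenerating (eq_top_iff.2 fun r _ => by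
    have h1 : π r ∈ (Subgroup.zpowers x ⊔ Subgroup.zpowers y).map π := by
      rw [Subgroup.map_sup, MonoidHom.map_zpowers, MonoidHom.map_zpowers, hxy]; trivial
    obtain ⟨z, hz, hzr⟩ := h1
    rw [show r = z * (z⁻¹ * r) by group]
    exact mul_mem (Subgroup.mem_sup_left hz) (Subgroup.mem_sup_right (QuotientGroup.eq.1 hzr)))
  refine ⟨⟨QuotientGroup.mk' _ y, fun q => ?_⟩⟩
  obtain ⟨r, rfl⟩ := QuotientGroup.mk'_surjective (Subgroup.zpowers x) q
  obtain ⟨a, ha, b, hb, rfl⟩ := Subgroup.mem_sup_of_normal_left.1 (htop.ge (Subgroup.mem_top r))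
  obtain ⟨i, rfl⟩ := Subgroup.mem_zpowers_iff.1 hb
  refine ⟨i, ?_⟩
  rw [map_mul, map_zpow, show QuotientGroup.mk' _ a = 1 from (QuotientGroup.eq_one_iff a).2 ha, one_mul]

/-- Metacyclicity lifts over a central subgroup of order `p` inside the derived group. -/
theorem metacyclic_of_quotient {R : Type u} [Group R] [Finite R] (hR : IsPGroup p R) (T : Subgroup R) [T.Normal]
    (hTd : T ≤ commutator R) (hTc : Nat.card T = p) (hd : ¬ Nat.card ↥(commutator R) ≤ p)
    (hQ : Cfsg.IsMetacyclic (R ⧸ T)) : Cfsg.IsMetacyclic R := by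
  have hTZ := le_center_of_card_le hR inferInstance hTc.le
  obtain ⟨N', hN', hNc, hQc⟩ := hQ
  set π := QuotientGroup.mk' T
  set N := N'.comap π with hN
  haveI hNn : N.Normal := hN'.comap π
  by_cases hNcy : IsCyclic N
  · refine ⟨N, hNn, hNcy, ?_⟩
    haveI := hQc
    refine isCyclic_of_injective (QuotientGroup.map N N' π le_rfl) ((injective_iff_map_eq_one _).2 fun q hq => ?_)
    obtain ⟨r, rfl⟩ := QuotientGroup.mk'_surjective N q
    exact (QuotientGroup.eq_one_iff r).2 ((QuotientGroup.eq_one_iff (π r)).1 hq)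
  exfalso
  apply hd
  obtain ⟨⟨a', ha'⟩, hagen⟩ := hNc.exists_generator
  obtain ⟨a, rfl⟩ := QuotientGroup.mk'_surjective T a'
  obtain ⟨b', hbgen⟩ := hQc.exists_generator
  obtain ⟨b'', rfl⟩ := QuotientGroup.mk'_surjective N' b'
  obtain ⟨b, rfl⟩ := QuotientGroup.mk'_surjective T b''
  have hTz : ∀ t ∈ T, ∀ g : R, Commute t g := fun t ht g => (Subgroup.mem_center_iff.1 (hTZ ht) g).symm
  have hNdec : ∀ z ∈ N, ∃ t ∈ T, ∃ i : ℤ, z = t * a ^ i := by
    intro z hz
    obtain ⟨i, hi⟩ := Subgroup.mem_zpowers_iff.1 (hagen ⟨π z, hz⟩)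
    have hi' : π a ^ i = π z := congrArg Subtype.val hi
    rw [← map_zpow] at hi'
    refine ⟨z * (a ^ i)⁻¹, (QuotientGroup.eq_one_iff _).1 ?_, i, by group⟩
    show π (z * (a ^ i)⁻¹) = 1
    rw [map_mul, map_inv, hi', mul_inv_cancel]
  have haN : a ∈ N := ha'
  obtain ⟨t, ht, k, hk⟩ := hNdec _ (hNn.conj_mem a haN b)
  set c := b * a * b⁻¹ * a⁻¹ with hc
  have hca : c = t * a ^ (k - 1) := by rw [hc, hk, zpow_sub_one]; group
  have hbc : b * c * b⁻¹ = c ^ k := by
    have hcomm : Commute t (a ^ (k - 1)) := hTz t ht _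
    have htb : b * t * b⁻¹ = t := by rw [← (hTz t ht b).eq, mul_inv_cancel_right]
    calc b * c * b⁻¹ = b * t * b⁻¹ * (b * a * b⁻¹) ^ (k - 1) := by rw [hca, conj_zpow]; group
      _ = t * (t * a ^ k) ^ (k - 1) := by rw [htb, hk]
      _ = t * (t ^ (k - 1) * a ^ (k * (k - 1))) := by rw [(hTz t ht _).mul_zpow, ← zpow_mul]
      _ = t ^ k * a ^ ((k - 1) * k) := by
        rw [← mul_assoc, show t * t ^ (k - 1) = t ^ k by rw [← zpow_one_add]; congr 1; ring, mul_comm k (k - 1)]
      _ = c ^ k := by rw [hca, hcomm.mul_zpow, ← zpow_mul]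
  have hcN : c ∈ N := mul_mem (hNn.conj_mem a haN b) (inv_mem haN)
  have haC : ∀ z ∈ N, Commute a z := fun z hz => by
    obtain ⟨t', ht', i, rfl⟩ := hNdec z hz
    exact (hTz t' ht' a).symm.mul_right ((Commute.refl a).zpow_right i)
  have hNab : ∀ y ∈ N, ∀ z ∈ N, Commute y z := fun y hy z hz => by
    obtain ⟨t', ht', i, rfl⟩ := hNdec y hy
    exact (hTz t' ht' z).mul_left ((haC z hz).zpow_left i)
  -- every element is `z b^j`
  have hdec : ∀ r : R, ∃ z ∈ N, ∃ j : ℤ, r = z * b ^ j := by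
    intro r
    obtain ⟨j, hj⟩ := Subgroup.mem_zpowers_iff.1 (hbgen (QuotientGroup.mk' N' (π r)))
    rw [← map_zpow, ← map_zpow] at hj
    have hm : (π (b ^ j))⁻¹ * π r ∈ N' := QuotientGroup.eq.1 hj
    rw [← map_inv, ← map_mul] at hm
    refine ⟨r * (b ^ j)⁻¹, ?_, j, by group⟩
    have := hNn.conj_mem _ (show (b ^ j)⁻¹ * r ∈ N from hm) (b ^ j)
    rwa [mul_inv_cancel_left] at this
  have hcn : (Subgroup.zpowers c).Normal := by
    have hb : b ∈ Subgroup.normalizer (Subgroup.zpowers c : Set R) := Subgroup.mem_normalizer_fintype fun z hz => by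
      obtain ⟨i, rfl⟩ := Subgroup.mem_zpowers_iff.1 hz
      rw [← conj_zpow, hbc]
      exact zpow_mem (zpow_mem (Subgroup.mem_zpowers c) k) i
    refine Subgroup.normalizer_eq_top_iff.1 (eq_top_iff.2 fun r _ => ?_)
    obtain ⟨z, hz, j, rfl⟩ := hdec r
    refine mul_mem (Subgroup.centralizer_le_normalizer _ (Subgroup.mem_centralizer_iff.2 fun y hy => ?_)) (zpow_mem hb j)
    obtain ⟨i, rfl⟩ := Subgroup.mem_zpowers_iff.1 hy
    exact ((hNab c hcN z hz).zpow_left i).eq
  haveI := hcn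
  set ρ := QuotientGroup.mk' (Subgroup.zpowers c)
  have hρab : Commute (ρ b) (ρ a) := by
    refine commutatorElement_eq_one_iff_mul_comm.1 ?_
    rw [← map_commutatorElement]
    exact (QuotientGroup.eq_one_iff _).2 (by rw [commutatorElement_def]; exact Subgroup.mem_zpowers c)
  have hρN : ∀ z ∈ N, Commute (ρ b) (ρ z) := fun z hz => by
    obtain ⟨t', ht', i, rfl⟩ := hNdec z hz
    rw [map_mul, map_zpow]
    exact ((hTz t' ht' b).symm.map ρ).mul_right (hρab.zpow_right i)
  have hder : commutator R ≤ Subgroup.zpowers c := by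
    refine Subgroup.commutator_le.2 fun r _ s _ => (QuotientGroup.eq_one_iff _).1 ?_
    obtain ⟨z, hz, j, rfl⟩ := hdec r
    obtain ⟨w, hw, l, rfl⟩ := hdec s
    show ρ ⁅z * b ^ j, w * b ^ l⁆ = 1
    rw [map_commutatorElement, commutatorElement_eq_one_iff_mul_comm, map_mul, map_mul, map_zpow, map_zpow]
    have c1 : Commute (ρ z) (ρ w) := (hNab z hz w hw).map ρ
    have c2 : Commute (ρ z) (ρ b ^ l) := ((hρN z hz).symm).zpow_right l
    have c3 : Commute (ρ b ^ j) (ρ w) := (hρN w hw).zpow_left j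
    exact ((c1.mul_right c2).mul_left (c3.mul_right ((Commute.refl _).zpow_zpow j l))).eq
  refine (Subgroup.card_le_of_le hder).trans ?_
  rw [Nat.card_zpowers]
  by_contra hgt
  have hcp : c ^ p ≠ 1 := fun e => hgt (Nat.le_of_dvd hp.out.pos (orderOf_dvd_of_pow_eq_one e))
  apply hNcy
  have htp : t ^ p = 1 := orderOf_dvd_iff_pow_eq_one.1 (hTc ▸ Subgroup.orderOf_dvd_natCard T ht)
  have hcpa : c ^ p ∈ Subgroup.zpowers a := by
    rw [hca, (hTz t ht _).mul_pow, htp, one_mul]
    exact pow_mem (Subgroup.zpow_mem_zpowers a _) p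
  -- `T` lies in `⟨a⟩`
  obtain ⟨⟨t₀, ht₀⟩, ht₀1⟩ : ∃ x : T, x ≠ 1 :=
    haveI : Nontrivial T := Finite.one_lt_card_iff_nontrivial.1 (hTc ▸ hp.out.one_lt)
    exists_ne 1
  have ht₀1' : t₀ ≠ 1 := fun e => ht₀1 (Subtype.ext e)
  obtain ⟨m, hm⟩ := IsPGroup.iff_orderOf.1 hR (c ^ p)
  obtain ⟨m, rfl⟩ : ∃ l, m = l + 1 := ⟨m - 1, by
    have : m ≠ 0 := fun h0 => hcp (orderOf_eq_one_iff.1 (by rw [hm, h0, pow_zero]))
    omega⟩
  set u := (c ^ p) ^ p ^ m with hu
  have hu1 : orderOf u = p := by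
    rw [hu, orderOf_pow' _ (pow_ne_zero _ hp.out.ne_zero), hm, Nat.gcd_eq_right (pow_dvd_pow p m.le_succ), pow_succ,
      Nat.mul_div_cancel_left _ (pow_pos hp.out.pos m)]
  have ht₀c : (⟨t₀, hder (hTd ht₀)⟩ : Subgroup.zpowers c) ∈
      Subgroup.zpowers (⟨u, pow_mem (pow_mem (Subgroup.mem_zpowers c) p) _⟩ : Subgroup.zpowers c) := by
    rw [CfsgLib.RankOneP.zpowers_eq_of_orderOf_eq (a := (⟨u, pow_mem (pow_mem (Subgroup.mem_zpowers c) p) _⟩ : Subgroup.zpowers c))
      (b := ⟨t₀, hder (hTd ht₀)⟩) (by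
        rw [Subgroup.orderOf_mk, Subgroup.orderOf_mk, hu1, orderOf_eq_prime
          (orderOf_dvd_iff_pow_eq_one.1 (hTc ▸ Subgroup.orderOf_dvd_natCard T ht₀)) ht₀1'])]
    exact Subgroup.mem_zpowers _
  obtain ⟨i, hi⟩ := Subgroup.mem_zpowers_iff.1 ht₀c
  have hi' : u ^ i = t₀ := congrArg Subtype.val hi
  have hTa : T ≤ Subgroup.zpowers a := by
    have h1 : Subgroup.zpowers t₀ = T := Subgroup.eq_of_le_of_card_ge (Subgroup.zpowers_le.2 ht₀)
      (by rw [hTc, Nat.card_zpowers, orderOf_eq_prime (orderOf_dvd_iff_pow_eq_one.1 (hTc ▸ Subgroup.orderOf_dvd_natCard T ht₀)) ht₀1'])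
    rw [← h1, Subgroup.zpowers_le, ← hi']
    exact zpow_mem (pow_mem hcpa _) i
  have hNa : N = Subgroup.zpowers a := le_antisymm (fun z hz => by
    obtain ⟨t', ht', i, rfl⟩ := hNdec z hz
    exact mul_mem (hTa ht') (Subgroup.zpow_mem_zpowers a i)) (Subgroup.zpowers_le.2 haN)
  rw [hNa]
  infer_instance

end CfsgLib.Blackburn
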